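import Cfsg.Agent.H672.Four.T1
import Cfsg.Agent.H670.Palfy.Base
import Cfsg.Agent.Lib.SylowNormalInf

/-!
# S4773: unique fixing properties from configurations, nonsolvable groups (helper672)

The proofs of `H670.Palfy.Base` with Itô-Michler for all groups.
-/

set_option autoImplicit false
set_option linter.unusedSectionVars false

namespace Cfsg.Agent.H672.Four

open Cfsg Cfsg.Agent.H670.Palfy Subgroup

universe u v

section

variable {H : Type u} {V : Type v} [Group H] [AddCommGroup V] [DistribMulAction H V]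

theorem gstab_of_cfg (hGIM : GIM.{u}) [Finite H] {D : Set ℕ} {k : ℕ} (hc : Cfg D H V k)
    {z : ℕ} [hz : Fact z.Prime] (y : ℕ) (hD : ∀ e ∈ D, k ∣ e → y ∣ e → z ∣ e → False) {v : V} (hv : v ≠ 0)
    (hy : y ∣ (MulAction.stabilizer H v).index) :
    ¬ z ∣ (MulAction.stabilizer H v).index ∧
      ∀ Q : Sylow z (MulAction.stabilizer H v), (Q : Subgroup (MulAction.stabilizer H v)).Normal ∧
        ∀ a ∈ (Q : Subgroup (MulAction.stabilizer H v)),
          ∀ b ∈ (Q : Subgroup (MulAction.stabilizer H v)), a * b = b * a := by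
  have h1 : ∀ d ∈ Cfsg.charDegrees (MulAction.stabilizer H v),
      ¬ z ∣ (MulAction.stabilizer H v).index * d := by
    intro d hd hzd
    obtain ⟨e, he, h1, h2⟩ := hc v hv d hd
    exact hD e he h2 ((Dvd.dvd.mul_right hy d).trans h1) (hzd.trans h1)
  refine ⟨fun h => h1 1 H681.DegBasic.one_mem (Dvd.dvd.mul_right h 1), fun Q => ?_⟩
  exact hGIM _ z (not_IM (fun ⟨d, hd, hzd⟩ => h1 d hd (Dvd.dvd.mul_left hzd _))) Q

/-- The case of a normal Sylow `y`-subgroup, `y` not adjacent to `z`. -/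
theorem guf_of_cfg_fixed (hGIM : GIM.{u}) [Finite H] {D : Set ℕ} {k : ℕ} (hc : Cfg D H V k)
    {z y : ℕ} [hz : Fact z.Prime] [hy : Fact y.Prime] (hD : ∀ e ∈ D, k ∣ e → y ∣ e → z ∣ e → False)
    (Y : Sylow y H) (hY : (Y : Subgroup H).Normal) :
    UF z H (fixed V (Y : Subgroup H)) ∧ ((∃ v : V, v ∉ fixed V (Y : Subgroup H)) →
      ∀ Q : Sylow z H, ∀ a ∈ (Q : Subgroup H), ∀ b ∈ (Q : Subgroup H), a * b = b * a) := by
  have key : ∀ v : V, v ∉ fixed V (Y : Subgroup H) → ¬ z ∣ (MulAction.stabilizer H v).index ∧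
      ∀ Q : Sylow z (MulAction.stabilizer H v), (Q : Subgroup (MulAction.stabilizer H v)).Normal ∧
        ∀ a ∈ (Q : Subgroup (MulAction.stabilizer H v)),
          ∀ b ∈ (Q : Subgroup (MulAction.stabilizer H v)), a * b = b * a := by
    intro v hv
    have hv0 : v ≠ 0 := by
      rintro rfl
      exact hv (zero_mem _)
    refine gstab_of_cfg hGIM hc y hD hv0 ?_
    by_contra hcon
    exact hv (le_of_not_dvd Y hY _ hcon)
  refine ⟨uf_of_stab fun v hv => ⟨(key v hv).1, fun Q => ((key v hv).2 Q).1⟩, ?_⟩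
  rintro ⟨v, hv⟩ Q
  exact comm_of_stab _ (key v hv).1 (fun Q => ((key v hv).2 Q).2) Q

theorem gcomm_of_cfg (hGIM : GIM.{u}) [Finite H] {D : Set ℕ} {k : ℕ} (hc : Cfg D H V k)
    {z : ℕ} [hz : Fact z.Prime] (hD : ∀ e ∈ D, k ∣ e → z ∣ e → False) (hV : Nontrivial V)
    (Q : Sylow z H) : ∀ a ∈ (Q : Subgroup H), ∀ b ∈ (Q : Subgroup H), a * b = b * a := by
  obtain ⟨v, hv⟩ := exists_ne (0 : V)
  have h := gstab_of_cfg hGIM hc 1 (fun e he h1 _ h2 => hD e he h1 h2) (v := v) hv (one_dvd _)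
  exact comm_of_stab _ h.1 (fun Q => (h.2 Q).2) Q

theorem guf_of_cfg (hGIM : GIM.{u}) [Finite H] {D : Set ℕ} {k : ℕ} (hc : Cfg D H V k)
    {z : ℕ} [hz : Fact z.Prime] (hD : ∀ e ∈ D, k ∣ e → z ∣ e → False) :
    UF z H (⊥ : AddSubgroup V) := by
  refine uf_of_stab fun v hv => ?_
  have h := gstab_of_cfg hGIM hc 1 (fun e he h1 _ h2 => hD e he h1 h2) (v := v) hv (one_dvd _)
  exact ⟨h.1, fun Q => (h.2 Q).1⟩

/-! ### Normal subgroups and faithful quotients -/

/-- If `v` is fixed by a unique Sylow subgroup `Q`, the `z`-subgroups fixing `v` lie in `Q`. -/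
theorem le_of_fix [Finite H] {z : ℕ} [hz : Fact z.Prime] {v : V} {Q : Sylow z H}
    (hQ : ∀ x ∈ (Q : Subgroup H), x • v = v)
    (hu : ∀ Q' : Sylow z H, (∀ x ∈ (Q' : Subgroup H), x • v = v) → Q' = Q) {R : Subgroup H}
    (hR : IsPGroup z R) (hRv : ∀ x ∈ R, x • v = v) : R ≤ (Q : Subgroup H) := by
  set T := MulAction.stabilizer H v with hT
  have hQT : (Q : Subgroup H) ≤ T := hQ
  have hi : ¬ z ∣ T.index := fun h => Q.not_dvd_index (h.trans (Subgroup.index_dvd_of_le hQT))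
  have hRT : R ≤ T := hRv
  have hR' : IsPGroup z (R.subgroupOf T) := hR.comap_subtype
  obtain ⟨S, hS⟩ := hR'.exists_le_sylow
  obtain ⟨Q', hQ'⟩ := map_sylow T hi S
  have h1 : Q' = Q := hu Q' (by
    intro x hx
    rw [← hQ'] at hx
    obtain ⟨y, -, rfl⟩ := hx
    exact y.2)
  rw [← h1, ← hQ']
  intro x hx
  exact ⟨⟨x, hRT hx⟩, hS hx, rfl⟩

/-- The unique fixing property for normal subgroups. -/
theorem uf_normal [Finite H] {z : ℕ} [hz : Fact z.Prime] (h : UF z H (⊥ : AddSubgroup V)) (X : Subgroup H)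
    [hX : X.Normal] : UF z X (⊥ : AddSubgroup V) := by
  intro v hv
  obtain ⟨Q, hQ, hu⟩ := h v hv
  set Q0 : Sylow z X := (Lib.SylowNormalInf.isPGroup_subgroupOf Q X).toSylow
    (Lib.SylowNormalInf.not_dvd_relIndex Q X) with hQ0
  have e0 : (Q0 : Subgroup X) = (Q : Subgroup H).subgroupOf X := rfl
  refine ⟨Q0, ?_, ?_⟩
  · intro x hx
    rw [e0, Subgroup.mem_subgroupOf] at hx
    exact hQ _ hx
  · intro Q' hQ'
    have h1 : (Q' : Subgroup X).map X.subtype ≤ (Q : Subgroup H) := by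
      refine le_of_fix hQ hu (Q'.isPGroup'.map _) ?_
      rintro _ ⟨x, hx, rfl⟩
      exact hQ' x hx
    have h2 : (Q' : Subgroup X) ≤ (Q0 : Subgroup X) := by
      intro x hx
      rw [e0, Subgroup.mem_subgroupOf]
      exact h1 ⟨x, hx, rfl⟩
    apply Sylow.ext
    exact (Q'.is_maximal' Q0.isPGroup' h2).symm

/-- A normal subgroup acting trivially has a normal Sylow `z`-subgroup. -/
theorem sylow_normal_of_triv [Finite H] {z : ℕ} [hz : Fact z.Prime] [Nontrivial V]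
    (h : UF z H (⊥ : AddSubgroup V)) (C : Subgroup H) [hC : C.Normal] (hCt : Triv V C) (Q : Sylow z C) :
    (Q : Subgroup C).Normal := by
  refine (uf_normal h C).normal_of_triv ?_ (Q := Q) ?_
  · obtain ⟨v, hv⟩ := exists_ne (0 : V)
    intro h1
    exact hv ((h1 ▸ AddSubgroup.mem_top v : v ∈ (⊥ : AddSubgroup V)))
  · intro x _ v
    exact hCt x x.2 v

end

end Cfsg.Agent.H672.Four
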