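import Cfsg.Agent.H672.Four.Interface

/-!
# S4773, case of nontrivial solvable radical: the module-theoretic pieces (helper672)

`H` finite, acting faithfully on the finite additive group `V`; `UF t H ⊥`: every nonzero vector is fixed by exactly one
Sylow `t`-subgroup.

* `FactG`      : a coprime element `x` of prime order `t` such that all prime divisors of `|X : C_X(x)|` are `≡ 1 mod t`
  acts trivially on `X / Rad X`;
* `FactRoot`   : `x` of prime order `t` normalising `⟨y⟩`, `y` irreducible of prime order, fixing a nonzero vector: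
  `|V| = |C_V(x)| ^ t`;
* `FactTwoSix`, `FactTwoSix'` : `|V| = 2 ^ 6`.
-/

set_option autoImplicit false

namespace Cfsg.Agent.H672.Four

open Cfsg.Agent.H670.Palfy

universe u v

/-- `H` acts faithfully on `V`. -/
def Faith (H : Type u) (V : Type v) [Group H] [AddCommGroup V] [DistribMulAction H V] : Prop :=
  ∀ h : H, (∀ v : V, h • v = v) → h = 1

def FactG : Prop := ∀ (H : Type u) [Group H] [Finite H] (X : Subgroup H) [X.Normal] (x : H), (orderOf x).Prime →
  ¬ orderOf x ∣ Nat.card X →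
  (∀ r : ℕ, r.Prime → r ∣ (Subgroup.centralizer ({x} : Set H)).relIndex X → orderOf x ∣ r - 1) →
  ∃ R : Subgroup H, R.Normal ∧ R ≤ X ∧ Group.IsSolvable R ∧ ∀ g ∈ X, x * g * x⁻¹ * g⁻¹ ∈ R

def FactRoot : Prop := ∀ (H : Type u) (V : Type v) [Group H] [Finite H] [AddCommGroup V] [Finite V]
  [DistribMulAction H V], Faith H V → ∀ x y : H, (orderOf x).Prime → (orderOf y).Prime →
  (∀ W : AddSubgroup V, (∀ w ∈ W, y • w ∈ W) → W = ⊥ ∨ W = ⊤) → x * y * x⁻¹ ∈ Subgroup.zpowers y →
  ∀ v : V, v ≠ 0 → x • v = v → Nat.card V = Nat.card (fixed V (Subgroup.zpowers x)) ^ orderOf x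

def FactTwoSix : Prop := ∀ (H : Type u) (V : Type v) [Group H] [Finite H] [AddCommGroup V] [Finite V]
  [DistribMulAction H V], Faith H V → Nat.card V = 2 ^ 6 → ∀ t : ℕ, t.Prime → t ≠ 2 → t ∣ Nat.card H →
  UF t H (⊥ : AddSubgroup V) → ∀ X : Subgroup H, X.Normal → ¬ t ∣ Nat.card X → Group.IsSolvable X

def FactTwoSix' : Prop := ∀ (H : Type u) (V : Type v) [Group H] [Finite H] [AddCommGroup V] [Finite V]
  [DistribMulAction H V], Faith H V → Nat.card V = 2 ^ 6 → ∀ s t : ℕ, s.Prime → t.Prime → s ≠ t → s ≠ 2 → t ≠ 2 →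
  s ∣ Nat.card H → t ∣ Nat.card H → UF s H (⊥ : AddSubgroup V) → UF t H (⊥ : AddSubgroup V) → False

end Cfsg.Agent.H672.Four
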